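import Cfsg.Agent.H695.Third

/-!
# Elements of order `p * q` (helper704)

If every element of order `p` is conjugate into `⟨x⟩` and `q² ∤ |C(x)|` then all elements of order `p * q` are conjugate
to powers of `x * y` where `y` of order `q` commutes with `x`.
-/

set_option autoImplicit false

namespace Cfsg.Agent.H704.Spor49.PQ

open Cfsg Subgroup Cfsg.Agent.H695

variable {S : Type*} [Group S] [Finite S]

theorem conj_pow_aux (c z : S) (n : ℕ) : (c * z * c⁻¹) ^ n = c * z ^ n * c⁻¹ := conj_pow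

theorem exists_conj_pow_mul {p q : ℕ} (hp : p.Prime) (hq : q.Prime) (hpq : p ≠ q) {x y : S} (hx : orderOf x = p)
    (hy : orderOf y = q) (hxy : Commute x y) (h5 : ∀ w : S, orderOf w = p → ∃ u : S, u * w * u⁻¹ ∈ zpowers x)
    (hc : (Nat.card (centralizer ({x} : Set S))).factorization q = 1) {z : S} (hz : orderOf z = p * q) :
    ∃ k : ℕ, IsConj ((x * y) ^ k) z := by
  have : Fact q.Prime := ⟨hq⟩
  have hzq : orderOf (z ^ q) = p := by
    rw [orderOf_pow, hz, Nat.gcd_eq_right (dvd_mul_left q p), Nat.mul_div_cancel _ hq.pos]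
  obtain ⟨u, hu⟩ := h5 _ hzq
  set z1 := u * z * u⁻¹ with hz1
  have hz1o : orderOf z1 = p * q := by
    rw [← hz]
    exact (MulAut.conj u).orderOf_eq z
  have hz1q : z1 ^ q ∈ zpowers x := by rw [hz1, conj_pow]; exact hu
  have hz1qo : orderOf (z1 ^ q) = p := by
    rw [orderOf_pow, hz1o, Nat.gcd_eq_right (dvd_mul_left q p), Nat.mul_div_cancel _ hq.pos]
  have hz1po : orderOf (z1 ^ p) = q := by
    rw [orderOf_pow, hz1o, Nat.gcd_eq_right (dvd_mul_right p q), Nat.mul_div_cancel_left _ hp.pos]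
  -- `x` is a power of `z1 ^ q`
  have hz1x : zpowers (z1 ^ q) = zpowers x := by
    apply Subgroup.eq_of_le_of_card_ge
    · rw [zpowers_le]; exact hz1q
    · rw [Nat.card_zpowers, Nat.card_zpowers, hx, hz1qo]
  have hxz : Commute x z1 := by
    have h1 : x ∈ zpowers (z1 ^ q) := by rw [hz1x]; exact mem_zpowers x
    obtain ⟨m, hm⟩ := h1
    have h2 : Commute ((z1 ^ q) ^ m) z1 := (((Commute.refl z1).pow_left q)).zpow_left m
    rwa [show (z1 ^ q) ^ m = x from hm] at h2
  -- Sylow in the centralizer of `x`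
  have hyC : y ∈ centralizer ({x} : Set S) := mem_centralizer_singleton_iff.2 hxy.eq.symm
  have hzC : z1 ^ p ∈ centralizer ({x} : Set S) :=
    mem_centralizer_singleton_iff.2 (hxz.pow_right p).eq.symm
  obtain ⟨⟨c, hcC⟩, j, hj, hqj⟩ := Third.exists_conj_pow (S := centralizer ({x} : Set S)) (p := q) hc
    (x := ⟨y, hyC⟩) (y := ⟨z1 ^ p, hzC⟩) (by rw [Subgroup.orderOf_mk, hy]) (by rw [Subgroup.orderOf_mk, hz1po])
  have hj' : c * z1 ^ p * c⁻¹ = y ^ j := by
    have := congrArg Subtype.val hj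
    simpa using this
  have hcx : Commute c x := mem_centralizer_singleton_iff.1 hcC
  set z2 := c * z1 * c⁻¹ with hz2
  have h2p : z2 ^ p = y ^ j := by rw [hz2, conj_pow, hj']
  have h2q : z2 ^ q ∈ zpowers x := by
    obtain ⟨m, hm⟩ := hz1q
    refine ⟨m, ?_⟩
    have hm' : x ^ m = z1 ^ q := hm
    show x ^ m = z2 ^ q
    rw [hz2, conj_pow, ← hm', (hcx.zpow_right m).eq, mul_inv_cancel_right]
  rw [← mem_powers_iff_mem_zpowers] at h2q
  obtain ⟨i, hi⟩ := h2q
  have hi' : x ^ i = z2 ^ q := hi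
  -- `z2` is in the group generated by `x` and `y`
  have hcop : p.Coprime q := (Nat.coprime_primes hp hq).2 hpq
  have hz2m : z2 ∈ zpowers (x * y) := by
    have hxm : x ∈ zpowers (x * y) := by
      have h3 : (x * y) ^ q = x ^ q := by
        rw [hxy.mul_pow, show y ^ q = 1 by rw [← hy]; exact pow_orderOf_eq_one y, mul_one]
      obtain ⟨m, hm⟩ := exists_pow_eq_self_of_coprime (x := x) (n := q) (by rw [hx]; exact hcop.symm)
      have h6 : ((x * y) ^ q) ^ m ∈ zpowers (x * y) :=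
        Subgroup.pow_mem _ (Subgroup.pow_mem _ (mem_zpowers (x * y)) q) m
      rwa [h3, hm] at h6
    have hym : y ∈ zpowers (x * y) := by
      have h3 : (x * y) ^ p = y ^ p := by
        rw [hxy.mul_pow, show x ^ p = 1 by rw [← hx]; exact pow_orderOf_eq_one x, one_mul]
      obtain ⟨m, hm⟩ := exists_pow_eq_self_of_coprime (x := y) (n := p) (by rw [hy]; exact hcop)
      have h6 : ((x * y) ^ p) ^ m ∈ zpowers (x * y) :=
        Subgroup.pow_mem _ (Subgroup.pow_mem _ (mem_zpowers (x * y)) p) m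
      rwa [h3, hm] at h6
    have h4 : z2 ^ (1 : ℤ) ∈ zpowers (x * y) := by
      have hb := Nat.gcd_eq_gcd_ab p q
      rw [hcop.gcd_eq_one] at hb
      rw [show (1 : ℤ) = p * Nat.gcdA p q + q * Nat.gcdB p q by exact_mod_cast hb, zpow_add, zpow_mul, zpow_mul,
        zpow_natCast, zpow_natCast, h2p, ← hi']
      exact mul_mem (Subgroup.zpow_mem _ (Subgroup.pow_mem _ hym _) _)
        (Subgroup.zpow_mem _ (Subgroup.pow_mem _ hxm _) _)
    rwa [zpow_one] at h4
  rw [← mem_powers_iff_mem_zpowers] at hz2m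
  obtain ⟨k, hk⟩ := hz2m
  refine ⟨k, ?_⟩
  have hk' : (x * y) ^ k = z2 := hk
  rw [hk', hz2, hz1]
  refine isConj_iff.2 ⟨u⁻¹ * c⁻¹, ?_⟩
  group

end Cfsg.Agent.H704.Spor49.PQ
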