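import Cfsg.Agent.S0215
import Cfsg.Agent.H713.Invol

/-!
# A prime not dividing the order of a group with an isolated involution (helper704)

`not_dvd_of_isolated`: let `t` be an involution of the finite group `X` which is the only involution commuting
with `t`, and let `t` lie in the commutator subgroup of `X`. If the prime `r` does not divide the order of the
centralizer of `t` and `r²` does not divide the order of `X` then `r` does not divide the order of `X`.
-/

set_option autoImplicit false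

namespace Cfsg.Agent.H704.Spor49.ZStar

open Subgroup
open scoped commutatorElement

universe u

variable {X : Type u} [Group X]

/-- An involution commuting with no other involution is central in its Sylow subgroups. -/
theorem eq_of_mem_sylow [Finite X] {t : X} (ht : orderOf t = 2)
    (huniq : ∀ s : X, orderOf s = 2 → s * t = t * s → s = t) (P : Sylow 2 X) (htP : t ∈ P) {s : X}
    (hs : orderOf s = 2) (hsP : s ∈ P) : s = t := by
  have : Fact (Nat.Prime 2) := ⟨Nat.prime_two⟩
  have hPp : IsPGroup 2 (P : Subgroup X) := P.isPGroup'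
  have hne : Nontrivial (P : Subgroup X) := by
    refine ⟨⟨⟨t, htP⟩, 1, fun h => ?_⟩⟩
    have h1 : t = 1 := congrArg Subtype.val h
    rw [h1, orderOf_one] at ht
    norm_num at ht
  have hZ : Nontrivial (center (P : Subgroup X)) := hPp.center_nontrivial
  have hZp : IsPGroup 2 (center (P : Subgroup X)) := hPp.to_subgroup _
  obtain ⟨n, hn0, hn⟩ := (IsPGroup.nontrivial_iff_card hZp).1 hZ
  obtain ⟨z, hz⟩ := exists_prime_orderOf_dvd_card' (G := center (P : Subgroup X)) 2
    (by rw [hn]; exact dvd_pow_self 2 hn0.ne')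
  have hz' : orderOf ((z : (P : Subgroup X)) : X) = 2 := by
    rw [Subgroup.orderOf_coe, Subgroup.orderOf_coe]; exact hz
  have hcz : ∀ w : X, w ∈ P → ((z : (P : Subgroup X)) : X) * w = w * ((z : (P : Subgroup X)) : X) := by
    intro w hw
    have h1 := mem_center_iff.1 z.2 ⟨w, hw⟩
    exact (congrArg Subtype.val h1).symm
  have hzt := huniq _ hz' (hcz t htP)
  refine huniq s hs ?_
  have h2 := hcz s hsP
  rw [hzt] at h2
  exact h2.symm

theorem conj_mem_sylow [Finite X] {t : X} (ht : orderOf t = 2)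
    (huniq : ∀ s : X, orderOf s = 2 → s * t = t * s → s = t) {s : X} (hs : orderOf s = 2) : IsConj t s := by
  have : Fact (Nat.Prime 2) := ⟨Nat.prime_two⟩
  have key : ∀ {w : X}, orderOf w = 2 → ∃ P : Sylow 2 X, w ∈ P := by
    intro w hw
    have h1 : IsPGroup 2 (zpowers w) := IsPGroup.of_card (n := 1) (by rw [Nat.card_zpowers, hw, pow_one])
    obtain ⟨P, hP⟩ := h1.exists_le_sylow
    exact ⟨P, hP (mem_zpowers w)⟩
  obtain ⟨P, hP⟩ := key ht
  obtain ⟨Q, hQ⟩ := key hs
  obtain ⟨g, hg⟩ := MulAction.exists_smul_eq X Q P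
  have h1 : g * s * g⁻¹ ∈ P := by
    have h2 : g * s * g⁻¹ ∈ ((g • Q : Sylow 2 X) : Subgroup X) := by
      rw [Sylow.coe_subgroup_smul]
      exact Subgroup.smul_mem_pointwise_smul s (MulAut.conj g) (Q : Subgroup X) hQ
    rw [hg] at h2
    exact h2
  have h2 := eq_of_mem_sylow ht huniq P hP (s := g * s * g⁻¹) (by
    rw [← hs]; exact MulEquiv.orderOf_eq (MulAut.conj g) s) h1
  exact (isConj_iff.2 ⟨g, h2⟩).symm

/-- **The lemma.** -/
theorem not_dvd_of_isolated [Finite X] {t : X} (ht : orderOf t = 2)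
    (huniq : ∀ s : X, orderOf s = 2 → s * t = t * s → s = t) (hcomm : t ∈ commutator X) {r : ℕ}
    (hr : r.Prime) (hrt : ¬ r ∣ Nat.card (centralizer ({t} : Set X))) (hsq : ¬ r * r ∣ Nat.card X) :
    ¬ r ∣ Nat.card X := by
  intro hrX
  have : Fact (Nat.Prime 2) := ⟨Nat.prime_two⟩
  have : Fact r.Prime := ⟨hr⟩
  have htt : t * t = 1 := by rw [← pow_two, ← ht, pow_orderOf_eq_one]
  -- the normal subgroup
  obtain ⟨P, hP⟩ : ∃ P : Sylow 2 X, t ∈ P := by
    have h1 : IsPGroup 2 (zpowers t) := IsPGroup.of_card (n := 1) (by rw [Nat.card_zpowers, ht, pow_one])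
    obtain ⟨P, hP⟩ := h1.exists_le_sylow
    exact ⟨P, hP (mem_zpowers t)⟩
  obtain ⟨N, hN, hNodd, hNc⟩ := Cfsg.Agent.S0215.result P t ht hP (fun g hg =>
    eq_of_mem_sylow ht huniq P hP (by rw [← ht]; exact MulEquiv.orderOf_eq (MulAut.conj g) t) hg)
  -- elements of `N` have odd order
  have hoddN : ∀ n ∈ N, Odd (orderOf n) := by
    intro n hn
    rw [← Subgroup.orderOf_mk n hn]
    exact hNodd.of_dvd_nat (orderOf_dvd_natCard _)
  -- the centralizer of `t` covers the quotient
  have hcov : ∀ g : X, ∃ c, c * t = t * c ∧ g⁻¹ * c ∈ N := by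
    intro g
    have h0 : t * (g⁻¹ * t * g) ∈ N := by
      have h1 := hNc g⁻¹
      rw [inv_inv] at h1
      have h2 : t⁻¹ = t := inv_eq_of_mul_eq_one_left htt
      rw [h2] at h1
      have h3 : t * (g⁻¹ * t * g) = t * g⁻¹ * t * g := by group
      rw [h3]
      exact h1
    have h2 : (g⁻¹ * t * g) * (g⁻¹ * t * g) = 1 := by
      calc (g⁻¹ * t * g) * (g⁻¹ * t * g) = g⁻¹ * (t * t) * g := by group
        _ = 1 := by rw [htt]; group
    obtain ⟨k, hk⟩ := Cfsg.Agent.H713.conj_of_odd htt h2 (hoddN _ h0)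
    set n := (t * (g⁻¹ * t * g)) ^ k with hn
    have hnN : n ∈ N := N.pow_mem h0 k
    refine ⟨g * n, ?_, ?_⟩
    · have h3 : n * t = g⁻¹ * t * g * n := by
        rw [← hk]; group
      calc g * n * t = g * (n * t) := by group
        _ = t * (g * n) := by rw [h3]; group
    · rw [inv_mul_cancel_left]; exact hnN
  -- `r` divides the order of `N`
  have hrN : r ∣ Nat.card N := by
    let f : centralizer ({t} : Set X) →* X ⧸ N := (QuotientGroup.mk' N).comp (centralizer ({t} : Set X)).subtype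
    have hf : Function.Surjective f := by
      intro q
      obtain ⟨g, rfl⟩ := QuotientGroup.mk'_surjective N q
      obtain ⟨c, hc, hcN⟩ := hcov g
      refine ⟨⟨c, mem_centralizer_singleton_iff.2 hc⟩, ?_⟩
      show (QuotientGroup.mk' N) c = (QuotientGroup.mk' N) g
      exact (QuotientGroup.eq.2 hcN).symm
    have h1 : Nat.card (X ⧸ N) ∣ Nat.card (centralizer ({t} : Set X)) := Subgroup.card_dvd_of_surjective f hf
    have h2 := N.card_mul_index
    rw [Subgroup.index] at h2
    rw [← h2] at hrX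
    exact (hr.dvd_mul.1 hrX).resolve_right fun h3 => hrt (h3.trans h1)
  -- Frattini
  let R : Sylow r N := default
  have hRcard : Nat.card R = r := by
    rw [R.card_eq_multiplicity]
    have h1 : (Nat.card N).factorization r = 1 := by
      have h2 : Nat.card N ∣ Nat.card X := N.card_subgroup_dvd_card
      have h3 := (hr.dvd_iff_one_le_factorization Nat.card_pos.ne').1 hrN
      by_contra hne
      have h4 : r ^ 2 ∣ Nat.card N := (hr.pow_dvd_iff_le_factorization Nat.card_pos.ne').2 (by omega)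
      rw [pow_two] at h4
      exact hsq (h4.trans h2)
    rw [h1, pow_one]
  set R' : Subgroup X := (R : Subgroup N).map N.subtype with hR'
  have hFr := Sylow.normalizer_sup_eq_top R
  have hR'card : Nat.card R' = r := by
    rw [hR', Subgroup.card_map_of_injective N.subtype_injective]
    exact hRcard
  set H := normalizer (R' : Set X) with hH
  have hH' : H ⊔ N = ⊤ := hFr
  -- commutators of `H` centralize `R'`
  have hab : ⁅H, H⁆ ≤ centralizer (R' : Set X) := by
    have hcyc : IsCyclic R' := isCyclic_of_prime_card hR'card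
    rw [Subgroup.commutator_le]
    intro a ha b hb
    rw [mem_centralizer_iff]
    obtain ⟨g, hg⟩ := IsCyclic.exists_generator (α := R')
    have hpow : ∀ c ∈ H, ∃ k : ℤ, ∀ x ∈ R', c * x * c⁻¹ = x ^ k := by
      intro c hc
      have h1 : c * (g : X) * c⁻¹ ∈ R' := (mem_normalizer_iff.1 hc (g : X)).1 g.2
      obtain ⟨k, hk⟩ := mem_zpowers_iff.1 (hg ⟨_, h1⟩)
      have hk' : (g : X) ^ k = c * (g : X) * c⁻¹ := congrArg Subtype.val hk
      refine ⟨k, fun x hx => ?_⟩
      obtain ⟨j, hj⟩ := mem_zpowers_iff.1 (hg ⟨x, hx⟩)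
      have hj' : (g : X) ^ j = x := congrArg Subtype.val hj
      rw [← hj', ← conj_zpow, ← hk', ← zpow_mul, ← zpow_mul, mul_comm]
    obtain ⟨k, hk⟩ := hpow a ha
    obtain ⟨l, hl⟩ := hpow b hb
    intro x hx
    have hax : a * x * a⁻¹ ∈ R' := (mem_normalizer_iff.1 ha x).1 hx
    have hbx : b * x * b⁻¹ ∈ R' := (mem_normalizer_iff.1 hb x).1 hx
    have h1 : a * (b * x * b⁻¹) * a⁻¹ = b * (a * x * a⁻¹) * b⁻¹ := by
      rw [hk _ hbx, hl _ hx, hl _ hax, hk _ hx, ← zpow_mul, ← zpow_mul, mul_comm]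
    have h2 : ∀ y ∈ R', ⁅a, b⁆ * y * ⁅a, b⁆⁻¹ = y := by
      intro y hy
      have hy' : a⁻¹ * y * a ∈ R' := by
        have := (mem_normalizer_iff.1 (H.inv_mem ha) y).1 hy
        rwa [inv_inv] at this
      have hy2 : b⁻¹ * (a⁻¹ * y * a) * b ∈ R' := by
        have := (mem_normalizer_iff.1 (H.inv_mem hb) (a⁻¹ * y * a)).1 hy'
        rwa [inv_inv] at this
      have h3 : ∀ x ∈ R', a * (b * x * b⁻¹) * a⁻¹ = b * (a * x * a⁻¹) * b⁻¹ := by
        intro x hx
        have hax : a * x * a⁻¹ ∈ R' := (mem_normalizer_iff.1 ha x).1 hx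
        have hbx : b * x * b⁻¹ ∈ R' := (mem_normalizer_iff.1 hb x).1 hx
        rw [hk _ hbx, hl _ hx, hl _ hax, hk _ hx, ← zpow_mul, ← zpow_mul, mul_comm]
      have h4 := h3 (a⁻¹ * (b⁻¹ * y * b) * a) (by
        have h5 : b⁻¹ * y * b ∈ R' := by
          have := (mem_normalizer_iff.1 (H.inv_mem hb) y).1 hy
          rwa [inv_inv] at this
        have := (mem_normalizer_iff.1 (H.inv_mem ha) (b⁻¹ * y * b)).1 h5
        rwa [inv_inv] at this)
      rw [commutatorElement_def]
      calc a * b * a⁻¹ * b⁻¹ * y * (a * b * a⁻¹ * b⁻¹)⁻¹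
          = a * (b * (a⁻¹ * (b⁻¹ * y * b) * a) * b⁻¹) * a⁻¹ := by group
        _ = b * (a * (a⁻¹ * (b⁻¹ * y * b) * a) * a⁻¹) * b⁻¹ := h4
        _ = y := by group
    have h3 := h2 x hx
    have h4 : ⁅a, b⁆ * x = x * ⁅a, b⁆ := mul_inv_eq_iff_eq_mul.1 h3
    exact h4.symm
  -- an element of `⁅H, H⁆` in `t N`
  obtain ⟨h, hh, hhN⟩ : ∃ h ∈ ⁅H, H⁆, t⁻¹ * h ∈ N := by
    have h1 : (⊤ : Subgroup X).map (QuotientGroup.mk' N) = H.map (QuotientGroup.mk' N) := by
      rw [← hH', Subgroup.map_sup, QuotientGroup.map_mk'_self, sup_bot_eq]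
    have h2 : (QuotientGroup.mk' N) t ∈ (commutator X).map (QuotientGroup.mk' N) := mem_map_of_mem _ hcomm
    rw [_root_.commutator_def, Subgroup.map_commutator, h1, ← Subgroup.map_commutator] at h2
    obtain ⟨h, hh, hht⟩ := h2
    exact ⟨h, hh, QuotientGroup.eq.1 hht.symm⟩
  have hhR : h ∈ centralizer (R' : Set X) := hab hh
  -- the odd power
  set m := orderOf (h * h) with hm
  have hhh : h * h ∈ N := by
    have h1 : h = t * (t⁻¹ * h) := by group
    have h2 : h * h = (t * (t⁻¹ * h) * t⁻¹) * (t * t) * (t⁻¹ * h) := by group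
    rw [h2, htt, mul_one]
    exact N.mul_mem (hN.conj_mem _ hhN t) hhN
  have hmodd : Odd m := hoddN _ hhh
  have hs2 : h ^ m * h ^ m = 1 := by
    rw [← pow_add, ← two_mul, pow_mul, pow_two, hm, pow_orderOf_eq_one]
  have hs1 : h ^ m ≠ 1 := by
    intro h1
    -- then `h` has odd order and `t ∈ N`
    have h2 : (QuotientGroup.mk' N) t = (QuotientGroup.mk' N) h := QuotientGroup.eq.2 hhN
    have h3 : ((QuotientGroup.mk' N) t) ^ m = 1 := by rw [h2, ← map_pow, h1, map_one]
    have h4 : ((QuotientGroup.mk' N) t) ^ 2 = 1 := by rw [← map_pow, pow_two, htt, map_one]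
    have h5 : (QuotientGroup.mk' N) t = 1 := by
      obtain ⟨j, hj⟩ := hmodd
      rw [hj, pow_succ, pow_mul, h4, one_pow, one_mul] at h3
      exact h3
    have h6 : t ∈ N := (QuotientGroup.eq_one_iff t).1 h5
    have h7 := hoddN t h6
    rw [ht] at h7
    exact absurd h7 (by decide)
  have hso : orderOf (h ^ m) = 2 := orderOf_eq_prime (by rw [pow_two]; exact hs2) hs1
  have hsR : h ^ m ∈ centralizer (R' : Set X) := Subgroup.pow_mem _ hhR m
  -- conclusion
  obtain ⟨c, hc⟩ := isConj_iff.1 (conj_mem_sylow ht huniq hso)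
  apply hrt
  have h1 : Nat.card (centralizer ({h ^ m} : Set X)) = Nat.card (centralizer ({t} : Set X)) := by
    rw [← hc]
    have h2 : (centralizer ({t} : Set X)).map (MulAut.conj c : X ≃* X).toMonoidHom =
        centralizer ({c * t * c⁻¹} : Set X) := by
      ext y
      rw [Subgroup.mem_map, mem_centralizer_singleton_iff]
      constructor
      · rintro ⟨w, hw, rfl⟩
        rw [mem_centralizer_singleton_iff] at hw
        show c * w * c⁻¹ * (c * t * c⁻¹) = c * t * c⁻¹ * (c * w * c⁻¹)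
        calc c * w * c⁻¹ * (c * t * c⁻¹) = c * (w * t) * c⁻¹ := by group
          _ = _ := by rw [hw]; group
      · intro hy
        refine ⟨c⁻¹ * y * c, ?_, ?_⟩
        · rw [mem_centralizer_singleton_iff]
          calc c⁻¹ * y * c * t = c⁻¹ * (y * (c * t * c⁻¹)) * c := by group
            _ = _ := by rw [hy]; group
        · show c * (c⁻¹ * y * c) * c⁻¹ = y
          group
    rw [← h2]
    exact Subgroup.card_map_of_injective (MulAut.conj c).injective
  rw [← h1, ← hR'card]
  refine Subgroup.card_dvd_of_le fun x hx => ?_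
  rw [mem_centralizer_singleton_iff]
  exact mem_centralizer_iff.1 hsR x hx

end Cfsg.Agent.H704.Spor49.ZStar
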